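import Cfsg.Prelude.Def_LocalEven
import Cfsg.Agent.OddPre.CN
import Cfsg.Agent.OddPre.PPrimeAbelian.Setting
import Cfsg.Agent.Stability.Action
import Cfsg.Agent.PSolv.HallHigman
import Cfsg.Agent.H4.ZJFusion
import Cfsg.Agent.OddLocal.MinSimple

/-!
# Minimal counterexamples to: `p'`-subgroups nilpotent implies solvable (`p > 3`)
-/

set_option autoImplicit false
set_option linter.style.haveILetI false

namespace Cfsg.Agent.OddPre.PPrimeNilpotent

open Subgroup

variable {G : Type*} [Group G] {p : ℕ}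

/-- Every subgroup of order prime to `p` is nilpotent. -/
def Nilp (p : ℕ) (G : Type*) [Group G] : Prop :=
  ∀ H : Subgroup G, ¬ p ∣ Nat.card H → Group.IsNilpotent H

theorem Nilp.subgroup (h : Nilp p G) (L : Subgroup G) : Nilp p L := by
  intro H hH
  let e := H.equivMapOfInjective L.subtype L.subtype_injective
  haveI := h (H.map L.subtype) (by rwa [← Nat.card_congr e.toEquiv])
  exact Group.nilpotent_of_mulEquiv e.symm

/-- The hypotheses on a minimal counterexample. -/
structure Crit (p : ℕ) (G : Type*) [Group G] : Prop where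
  five : 5 ≤ p
  prime : p.Prime
  nil : Nilp p G
  simple : IsSimpleGroup G
  solv : ∀ L : Subgroup G, L ≠ ⊤ → Group.IsSolvable L
  notSolv : ¬ Group.IsSolvable G
  even : 2 ∣ Nat.card G

theorem Crit.p_ne_two (hc : Crit p G) : p ≠ 2 := by have := hc.five; omega

theorem Crit.eq_bot_or_top (hc : Crit p G) {N : Subgroup G} (hN : N.Normal) : N = ⊥ ∨ N = ⊤ :=
  hc.simple.eq_bot_or_eq_top_of_normal N hN

theorem Crit.normalizer_ne_top (hc : Crit p G) {H : Subgroup G} (h1 : H ≠ ⊥) (h2 : H ≠ ⊤) :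
    normalizer (H : Set G) ≠ ⊤ := fun h => by
  rcases hc.eq_bot_or_top (Subgroup.normalizer_eq_top_iff.1 h) with e | e
  exacts [h1 e, h2 e]

theorem Crit.ne_top_of_solvable (hc : Crit p G) {H : Subgroup G} (hs : Group.IsSolvable H) :
    H ≠ ⊤ := by
  rintro rfl
  exact hc.notSolv (Group.isSolvable_of_surjective
    (f := (⊤ : Subgroup G).subtype) fun g => ⟨⟨g, mem_top g⟩, rfl⟩)

theorem Crit.ne_top_of_pGroup [Finite G] (hc : Crit p G) {q : ℕ} [Fact q.Prime] {H : Subgroup G}
    (hH : IsPGroup q H) : H ≠ ⊤ := by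
  haveI := hH.isNilpotent
  exact hc.ne_top_of_solvable inferInstance

theorem Crit.normalizer_solvable [Finite G] (hc : Crit p G) {q : ℕ} [Fact q.Prime]
    {H : Subgroup G} (hH : IsPGroup q H) (h1 : H ≠ ⊥) :
    Group.IsSolvable (normalizer (H : Set G)) :=
  hc.solv _ (hc.normalizer_ne_top h1 (hc.ne_top_of_pGroup hH))

theorem Crit.center_eq_bot (hc : Crit p G) : center G = ⊥ :=
  (hc.eq_bot_or_top inferInstance).resolve_right fun h => hc.notSolv (Group.isSolvable_of_comm
    fun a b => ((Subgroup.mem_center_iff.1 (h ▸ mem_top a)) b).symm)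

theorem Crit.centralizer_ne_top (hc : Crit p G) {a : G} (ha : a ≠ 1) :
    centralizer ({a} : Set G) ≠ ⊤ := fun h => ha (by
  have hm : a ∈ center G := Subgroup.mem_center_iff.2 fun g =>
    mem_centralizer_singleton_iff.1 (h ▸ mem_top g)
  rwa [hc.center_eq_bot, mem_bot] at hm)

theorem Crit.centralizer_solvable (hc : Crit p G) {a : G} (ha : a ≠ 1) :
    Group.IsSolvable (centralizer ({a} : Set G)) :=
  hc.solv _ (hc.centralizer_ne_top ha)

theorem Crit.solvable_centralizer_le (hc : Crit p G) {a : G} (ha : a ≠ 1) {X : Subgroup G}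
    (hX : X ≤ centralizer ({a} : Set G)) : Group.IsSolvable X :=
  hc.solv _ fun h => hc.centralizer_ne_top ha (top_le_iff.1 (h ▸ hX))

theorem Crit.pConstrained_centralizer [Finite G] (hc : Crit p G) (q : ℕ) [Fact q.Prime] {a : G}
    (ha : a ≠ 1) : Cfsg.IsPConstrained q (centralizer ({a} : Set G)) :=
  PSolv.isPConstrained_of_isPSolvable
    (PSolv.isPSolvable_of_isSolvable (hc.centralizer_solvable ha))

theorem Crit.sl2Free (hc : Crit p G) [Finite G] [hp : Fact p.Prime] {L : Subgroup G}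
    (hL : L ≠ ⊤) : Stability.PairFree p L := by
  haveI := hc.solv L hL
  exact Stability.pairFree_of_isPSolvable hc.five (PSolv.isPSolvable_of_isSolvable inferInstance)

/-- Commuting of coprime `p'`-parts. -/
theorem Crit.commute_of_coprime [Finite G] (hc : Crit p G) {H : Subgroup G}
    (hH : ¬ p ∣ Nat.card H) {a b : G} (ha : a ∈ H) (hb : b ∈ H)
    (h : (orderOf a).Coprime (orderOf b)) : Commute a b :=
  CN.commute_of_coprime (hc.nil H hH) ha hb h

/-- An `r`-element normalizing a `q`-group centralizes it, for distinct primes `q, r` different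
from `p`. -/
theorem Crit.centralizes [Finite G] (hc : Crit p G) {q r : ℕ} [hq : Fact q.Prime]
    (hr : r.Prime) (hqp : q ≠ p) (hrp : r ≠ p) (hqr : q ≠ r) {R : Subgroup G}
    (hR : IsPGroup q R) {x : G} (hx : x ∈ normalizer (R : Set G)) (hxo : ∃ k, orderOf x = r ^ k) :
    x ∈ centralizer (R : Set G) := by
  have hd : Nat.card ↥(zpowers x ⊔ R) ∣ Nat.card ↥(zpowers x) * Nat.card R :=
    OddLocal.card_sup_dvd_mul_of_normalizes (zpowers_le.2 hx)
  have hH : ¬ p ∣ Nat.card ↥(zpowers x ⊔ R) := by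
    intro h
    obtain ⟨j, hj⟩ := hR.exists_card_eq
    obtain ⟨k, hk⟩ := hxo
    rw [Nat.card_zpowers, hk, hj] at hd
    rcases hc.prime.dvd_mul.1 (h.trans hd) with h' | h'
    · exact hrp ((Nat.prime_dvd_prime_iff_eq hc.prime hr).1 (hc.prime.dvd_of_dvd_pow h')).symm
    · exact hqp ((Nat.prime_dvd_prime_iff_eq hc.prime hq.out).1 (hc.prime.dvd_of_dvd_pow h')).symm
  intro a ha
  obtain ⟨j, hj⟩ := IsPGroup.iff_orderOf.1 hR ⟨a, ha⟩
  rw [Subgroup.orderOf_mk] at hj
  exact (hc.commute_of_coprime hH (mem_sup_right ha) (mem_sup_left (mem_zpowers x))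
    (CN.coprime_of_prime_pow hq.out hr hqr ⟨j, hj⟩ hxo)).eq

theorem not_isNilpotent_perm_four : ¬ Group.IsNilpotent (Equiv.Perm (Fin 4)) := by
  intro h
  have h1 : Commute (Equiv.swap (0 : Fin 4) 1) (Equiv.swap (0 : Fin 4) 1 * Equiv.swap 1 2) := by
    refine Char.nilpotent_commute_of_coprime ?_
    rw [show orderOf (Equiv.swap (0 : Fin 4) 1) = 2 from orderOf_eq_prime (by decide) (by decide),
      show orderOf (Equiv.swap (0 : Fin 4) 1 * Equiv.swap 1 2) = 3 from
        @orderOf_eq_prime _ _ _ 3 ⟨Nat.prime_three⟩ (by decide) (by decide)]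
    norm_num
  exact absurd h1.eq (by decide)

/-- No proper subgroup involves `S₄`. -/
theorem Crit.s4Free [Finite G] (hc : Crit p G) {L : Subgroup G} (hL : L ≠ ⊤) :
    ¬ Cfsg.Involves (Equiv.Perm (Fin 4)) L := by
  rintro ⟨K, R, hR, ⟨e⟩⟩
  haveI := hc.solv L hL
  haveI := hR
  have hnd : ¬ p ∣ Nat.card (⊤ : Subgroup (↥K ⧸ R.subgroupOf K)) := by
    rw [card_top, Nat.card_congr e.toEquiv, Nat.card_perm, Nat.card_fin]
    intro hd
    have := (Nat.Prime.dvd_factorial hc.prime).1 hd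
    have := hc.five
    omega
  obtain ⟨H, hH, hmap⟩ := PPrimeAbelian.exists_lift_coprime hc.prime (R.subgroupOf K) ⊤ hnd
    inferInstance
  haveI := ((hc.nil.subgroup L).subgroup K) H hH
  refine not_isNilpotent_perm_four (Group.nilpotent_of_surjective
    ((e.toMonoidHom.comp (QuotientGroup.mk' (R.subgroupOf K))).comp H.subtype) ?_)
  intro s
  obtain ⟨q, rfl⟩ := e.surjective s
  have hq : q ∈ H.map (QuotientGroup.mk' (R.subgroupOf K)) := hmap ▸ mem_top q
  obtain ⟨y, hy, rfl⟩ := hq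
  exact ⟨⟨y, hy⟩, rfl⟩

end Cfsg.Agent.OddPre.PPrimeNilpotent
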