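import Cfsg.Agent.OddPre.PPrimeNilpotent.Basic
import Cfsg.Agent.LAE60.WSolvable
import Cfsg.Agent.CharTwo.Locals
import Cfsg.Agent.Fusion.Alperin
import Cfsg.Agent.Transfer.Fusion

/-!
# Control of `2`-locals by `N(W(S))`
-/

set_option autoImplicit false
set_option linter.style.haveILetI false

namespace Cfsg.Agent.OddPre.PPrimeNilpotent

open Subgroup Cfsg.Agent.Fusion
open Cfsg.Agent.LAE60.W (WS WS_le WS_map cj_WS normal_WS normalizer_le_normalizer_WS WS_ne_bot
  good_WS zpowers_le_WS)

variable {G : Type*} [Group G] [Finite G] {p : ℕ}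

/-- `X = O(X) N_X(W(T))` for proper subgroups `X` with Sylow 2-subgroup `T`. -/
theorem Crit.le_core_sup_WS (hc : Crit p G) {X T : Subgroup G} (hX : X ≠ ⊤) (hT : IsPGroup 2 T)
    (hTX : T ≤ X) (hmax : ∀ R : Subgroup G, R ≤ X → IsPGroup 2 R → T ≤ R → R = T) {x : G}
    (hx : x ∈ X) :
    ∃ o ∈ CharTwo.coreIn 2 X, ∃ n ∈ normalizer (WS T : Set G), n ∈ X ∧ x = o * n := by
  haveI : Fact (Nat.Prime 2) := ⟨Nat.prime_two⟩
  haveI := hc.solv X hX
  let P : Sylow 2 X := ⟨T.subgroupOf X, hT.comap_subtype, fun {R} hR hle => by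
    have := hmax (R.map X.subtype) (map_subtype_le R) (hR.map X.subtype) (by
      rw [← inf_of_le_left hTX, ← subgroupOf_map_subtype]; exact map_mono hle)
    rw [← this, subgroupOf, comap_map_eq_self_of_injective X.subtype_injective]⟩
  set O := Cfsg.pPrimeCore 2 X with hO
  set π := QuotientGroup.mk' O with hπ
  have hcop : (Nat.card O).Coprime 2 := Cores.pPrimeCore_coprime
  have hinj : Function.Injective (π.comp (P : Subgroup X).subtype) := by
    rw [injective_iff_map_eq_one]
    intro a ha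
    exact Subtype.ext (CharTwo.eq_one_of_coprime_of_mem P.2 a.2
      (Cores.orderOf_coprime_of_mem_pPrimeCore ((QuotientGroup.eq_one_iff _).1 ha)))
  have hWSmap : (WS (P : Subgroup X)).map π = WS ((P : Subgroup X).map π) := by
    have h1 := WS_map (f := (P : Subgroup X).subtype) (subtype_injective _) ⊤
    have h2 := WS_map hinj ⊤
    rw [← MonoidHom.range_eq_map, range_subtype] at h1
    rw [h1, map_map, ← h2, ← map_map, ← MonoidHom.range_eq_map, range_subtype]
  have hfree : ¬ Cfsg.Involves (Equiv.Perm (Fin 4)) (X ⧸ O) := by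
    rintro ⟨K, R, hR, ⟨e⟩⟩
    exact hc.s4Free hX (Stability.section_comap _ (QuotientGroup.mk'_surjective O) hR e)
  have hcc := PSolv.centralizer_pCore_le (p := 2)
    (PSolv.isPSolvable_of_isSolvable (inferInstance : Group.IsSolvable (X ⧸ O)))
    Cores.pPrimeCore_quotient_pPrimeCore_eq_bot
  haveI hn : (WS ((P : Subgroup X).map π)).Normal := normal_WS _ (X ⧸ O) le_rfl inferInstance
    hfree hcc (P.mapSurjective (f := π) (QuotientGroup.mk'_surjective O))
  have hN := CharTwo.map_normalizer_mk hcop (P.2.to_le (WS_le (P : Subgroup X)))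
  rw [← hπ, hWSmap, normalizer_eq_top (WS ((P : Subgroup X).map π))] at hN
  have hx' : π ⟨x, hx⟩ ∈ (normalizer (WS (P : Subgroup X) : Set X)).map π := hN ▸ mem_top _
  obtain ⟨n, hn', hπn⟩ := hx'
  have ho : (⟨x, hx⟩ : X) * n⁻¹ ∈ O := by
    rw [← QuotientGroup.eq_one_iff]
    show π ((⟨x, hx⟩ : X) * n⁻¹) = 1
    rw [map_mul, map_inv, hπn, mul_inv_cancel]
  refine ⟨((⟨x, hx⟩ : X) * n⁻¹ : X), ⟨_, ho, rfl⟩, (n : G), ?_, n.2, by simp⟩
  have e : (WS (P : Subgroup X)).map X.subtype = WS T := by
    rw [← WS_map X.subtype_injective]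
    show WS ((T.subgroupOf X).map X.subtype) = WS T
    rw [subgroupOf_map_subtype, inf_of_le_left hTX]
  rw [← e]
  exact le_normalizer_map X.subtype ⟨n, hn', rfl⟩

/-- A subgroup containing `N(W(S))` and the cores of a suitable family of 2-locals contains these
2-locals. -/
theorem Crit.normalizer_le_of_cores (hc : Crit p G) (S : Sylow 2 G) (K : Subgroup G)
    (P : Subgroup G → Prop) (hne : ∀ D, P D → D ≠ ⊥)
    (hWS : ∀ T : Subgroup G, T ≤ (S : Subgroup G) → T ≠ ⊥ →
      centralizer ((S : Subgroup G) : Set G) ⊓ S ≤ T → P (WS T))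
    (hup : ∀ D U : Subgroup G, P D → D ≤ U → P U)
    (hcj : ∀ D, P D → ∀ y ∈ K, P (cj y D))
    (hbase : normalizer (WS (S : Subgroup G) : Set G) ≤ K)
    (hcore : ∀ D, D ≤ (S : Subgroup G) → P D → CharTwo.coreIn 2 (normalizer (D : Set G)) ≤ K) :
    ∀ D, D ≤ (S : Subgroup G) → P D → normalizer (D : Set G) ≤ K := by
  haveI : Fact (Nat.Prime 2) := ⟨Nat.prime_two⟩
  have hS1 : normalizer ((S : Subgroup G) : Set G) ≤ K :=
    (normalizer_le_normalizer_WS _).trans hbase
  suffices h : ∀ (k : ℕ) (D : Subgroup G), D ≤ (S : Subgroup G) → P D →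
      Nat.card (S : Subgroup G) - Nat.card ↥((S : Subgroup G) ⊓ normalizer (D : Set G)) = k →
      normalizer (D : Set G) ≤ K from fun D h1 h2 => h _ D h1 h2 rfl
  intro k
  induction k using Nat.strong_induction_on with
  | _ k ih =>
  intro D hDS hPD hk
  set T := (S : Subgroup G) ⊓ normalizer (D : Set G) with hT
  have hDT : D ≤ T := le_inf hDS le_normalizer
  obtain ⟨R, hR⟩ := (S.2.to_le (inf_le_left : T ≤ (S : Subgroup G))).comap_subtype
    (K := normalizer (D : Set G)) |>.exists_le_sylow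
  set R' := (R : Subgroup _).map (normalizer (D : Set G)).subtype with hR'def
  have hTR : T ≤ R' := fun t ht => ⟨⟨t, ht.2⟩, hR ht, rfl⟩
  have hR' : IsPGroup 2 R' := R.2.map _
  obtain ⟨S', hS'⟩ := hR'.exists_le_sylow
  obtain ⟨y, hy⟩ := MulAction.exists_smul_eq G S S'
  have hyS : cj y (S : Subgroup G) = (S' : Subgroup G) := by rw [← hy]; rfl
  have hR'S : cj y⁻¹ R' ≤ (S : Subgroup G) := by
    rw [cj_le_iff, inv_inv, hyS]; exact hS'
  have hyK : y ∈ K := by
    have key : ∀ (A : Subgroup G) (g : G), FusionChain S A g →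
        P A → Nat.card A = Nat.card T → g ∈ K := by
      intro A g hg
      induction hg with
      | one A => exact fun _ _ => one_mem K
      | @step A R x g hR hx _ hle _ ihg =>
        intro hPA hcard
        have hxK : x ∈ K := by
          rcases eq_or_ne ((S : Subgroup G) ⊓ (R : Subgroup G)) (S : Subgroup G) with e | e
          · exact hS1 (e ▸ hx)
          refine ih _ ?_ _ inf_le_left (hup _ _ hPA hle) rfl hx
          have hlt := lt_normalizer_inf S.2 (lt_of_le_of_ne inf_le_left e)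
          have h1 := Subgroup.card_le_of_le hle
          have h2 : Nat.card ↥((S : Subgroup G) ⊓ (R : Subgroup G)) <
              Nat.card ↥((S : Subgroup G) ⊓
                normalizer (((S : Subgroup G) ⊓ (R : Subgroup G) : Subgroup G) : Set G)) := by
            exact card_lt_card hlt
          have h3 := Subgroup.card_le_of_le
            (inf_le_left : (S : Subgroup G) ⊓
              normalizer (((S : Subgroup G) ⊓ (R : Subgroup G) : Subgroup G) : Set G) ≤ S)
          omega
        exact mul_mem hxK (ihg (hcj _ hPA _ (inv_mem hxK)) (by rw [card_cj, hcard]))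
    exact key T y (exists_chain S inf_le_left ((cj_mono _ hTR).trans hR'S)) (hup _ _ hPD hDT) rfl
  set D' := cj y⁻¹ D with hD'
  have hPD' : P D' := hcj D hPD _ (inv_mem hyK)
  have hD'S : D' ≤ (S : Subgroup G) := (cj_mono _ (hDT.trans hTR)).trans hR'S
  intro n hn
  suffices h : y⁻¹ * n * y ∈ K by
    have := K.mul_mem (K.mul_mem hyK h) (inv_mem hyK)
    simpa [mul_assoc] using this
  have hn' : y⁻¹ * n * y ∈ normalizer (D' : Set G) := by
    rw [hD', ← cj_normalizer, mem_cj_inv]
    simpa [mul_assoc] using hn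
  set T' := (S : Subgroup G) ⊓ normalizer (D' : Set G) with hT'
  have hRT' : cj y⁻¹ R' ≤ T' := le_inf hR'S (by
    rw [hD', ← cj_normalizer]; exact cj_mono _ (map_subtype_le _))
  have hmax : ∀ U : Subgroup G, U ≤ normalizer (D' : Set G) → IsPGroup 2 U → T' ≤ U → U = T' := by
    intro U hU hUp hle
    have hyU : cj y U ≤ normalizer (D : Set G) := by
      have := cj_mono y hU
      rwa [hD', cj_normalizer, cj_cj_inv] at this
    have hRU : R' ≤ cj y U := le_cj_iff.2 (hRT'.trans hle)
    have he : cj y U = R' := by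
      refine le_antisymm ?_ hRU
      have := R.3 ((isPGroup_cj hUp y).comap_subtype (K := normalizer (D : Set G)))
        (fun a ha => hRU ⟨a, ha, rfl⟩)
      intro a ha
      exact ⟨⟨a, hyU ha⟩, this ▸ ha, rfl⟩
    refine le_antisymm ?_ hle
    rw [← cj_inv_cj y U, he]
    exact hRT'
  have hD'ne : D' ≠ ⊥ := hne _ hPD'
  have hT'ne : T' ≠ ⊥ := fun h => hD'ne (le_bot_iff.1 (h ▸ le_inf hD'S le_normalizer))
  obtain ⟨o, ho, m, hm, -, e⟩ := hc.le_core_sup_WS
    (hc.normalizer_ne_top hD'ne (hc.ne_top_of_pGroup (S.2.to_le hD'S)))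
    (S.2.to_le inf_le_left) inf_le_right hmax hn'
  rw [e]
  refine mul_mem (hcore D' hD'S hPD' ho) ?_
  rcases eq_or_ne T' (S : Subgroup G) with h | h
  · exact hbase (h ▸ hm)
  have hPW : P (WS T') := hWS T' inf_le_left hT'ne
    (le_inf inf_le_right ((inf_le_left.trans ((Subgroup.centralizer_le hD'S).trans
      (CharTwo.normalizer_le_centralizer_of_coe D')))))
  refine ih _ ?_ _ ((WS_le T').trans inf_le_left) hPW rfl hm
  have hlt : T' < (S : Subgroup G) ⊓ normalizer (T' : Set G) :=
    lt_normalizer_inf S.2 (lt_of_le_of_ne inf_le_left h)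
  have h1 := card_lt_card hlt
  have h2 := Subgroup.card_le_of_le (inf_le_inf_left (S : Subgroup G)
    (normalizer_le_normalizer_WS T'))
  have h3 := Subgroup.card_le_of_le hTR
  have h4 := Subgroup.card_le_of_le hRT'
  rw [card_cj] at h4
  have h5 := Subgroup.card_le_of_le (inf_le_left :
    (S : Subgroup G) ⊓ normalizer (WS T' : Set G) ≤ S)
  omega

end Cfsg.Agent.OddPre.PPrimeNilpotent
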